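import Mathlib

/-!
# A normal complement of a self-centralising abelian Sylow 2-subgroup (helper555)

`comm_of_compl` : `H = N Q`, `N` normal of odd order with cyclic Sylow subgroups, `Q` an abelian Sylow 2-subgroup with
`C_H(Q) ≤ Q`: `N` is abelian.
-/

set_option autoImplicit false

namespace Cfsg.Agent.H555.RV

open Subgroup
open scoped commutatorElement

universe u

variable {H : Type u} [Group H] [Finite H]

omit [Finite H] in
/-- `H'` centralises a cyclic normal subgroup -/
theorem commutator_le_centralizer {Z : Subgroup H} (hZ : Z.Normal) (hc : IsCyclic Z) :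
    commutator H ≤ centralizer (Z : Set H) := by
  rw [commutator_def, Subgroup.commutator_le]
  intro g _ h _
  obtain ⟨z, hz⟩ := hc.exists_generator
  have key : ∀ g : H, ∃ a : ℤ, (MulAut.conjNormal g : MulAut Z) z = z ^ a := by
    intro g
    obtain ⟨a, ha⟩ := hz ((MulAut.conjNormal g : MulAut Z) z)
    exact ⟨a, ha.symm⟩
  obtain ⟨a, ha⟩ := key g
  obtain ⟨b, hb⟩ := key h
  have h1 : Commute (MulAut.conjNormal g : MulAut Z) (MulAut.conjNormal h : MulAut Z) := by
    apply MulEquiv.ext
    intro w
    obtain ⟨k, rfl⟩ := hz w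
    show (MulAut.conjNormal g : MulAut Z) ((MulAut.conjNormal h : MulAut Z) (z ^ k)) =
      (MulAut.conjNormal h : MulAut Z) ((MulAut.conjNormal g : MulAut Z) (z ^ k))
    have e1 : (MulAut.conjNormal g : MulAut Z) ((MulAut.conjNormal h : MulAut Z) (z ^ k)) = ((z ^ a) ^ b) ^ k := by
      rw [map_zpow, hb, map_zpow, map_zpow, ha]
    have e2 : (MulAut.conjNormal h : MulAut Z) ((MulAut.conjNormal g : MulAut Z) (z ^ k)) = ((z ^ b) ^ a) ^ k := by
      rw [map_zpow, ha, map_zpow, map_zpow, hb]
    rw [e1, e2, ← zpow_mul z a b, ← zpow_mul z b a, mul_comm a b]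
  have h2 : (MulAut.conjNormal ⁅g, h⁆ : MulAut Z) = 1 := by
    rw [map_commutatorElement, commutatorElement_eq_one_iff_commute]
    exact h1
  rw [mem_centralizer_iff]
  intro y hy
  have h3 := congrArg (fun f : MulAut Z => ((f ⟨y, hy⟩ : Z) : H)) h2
  have h4 : ⁅g, h⁆ * y * ⁅g, h⁆⁻¹ = y := h3
  exact (mul_inv_eq_iff_eq_mul.1 h4).symm

theorem comm_of_compl {N : Subgroup H} (hN : N.Normal) (Q : Sylow 2 H) (hc : IsComplement' N (Q : Subgroup H))
    (hQ : ∀ a ∈ Q, ∀ b ∈ Q, a * b = b * a) (hC : centralizer ((Q : Subgroup H) : Set H) ≤ Q)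
    (hcyc : ∀ r : ℕ, r.Prime → r ≠ 2 → ∀ R : Subgroup H, IsPGroup r R → IsCyclic R) :
    ¬ 2 ∣ Nat.card N ∧ ∀ a ∈ N, ∀ b ∈ N, a * b = b * a := by
  have hf2 : Fact (Nat.Prime 2) := ⟨Nat.prime_two⟩
  have hNi : Nat.card N = (Q : Subgroup H).index := by
    have h1 := hc.card_mul_card
    have h2 := (Q : Subgroup H).card_mul_index
    rw [← h2, mul_comm] at h1
    exact Nat.eq_of_mul_eq_mul_left Nat.card_pos h1
  have hodd : ¬ 2 ∣ Nat.card N := by rw [hNi]; exact Q.not_dvd_index
  refine ⟨hodd, ?_⟩
  -- `Q` is self-normalising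
  have hdisj : ∀ x ∈ N, x ∈ (Q : Subgroup H) → x = 1 := by
    intro x hx hxQ
    have h1 := hc.disjoint
    rw [disjoint_iff] at h1
    have h2 : x ∈ N ⊓ (Q : Subgroup H) := ⟨hx, hxQ⟩
    rw [h1] at h2
    exact h2
  have hself : normalizer ((Q : Subgroup H) : Set H) ≤ Q := by
    intro g hg
    obtain ⟨⟨n, q⟩, hnq⟩ := hc.2 g
    have hnq : (n : H) * q = g := hnq
    have hn : (n : H) ∈ normalizer ((Q : Subgroup H) : Set H) := by
      have h1 : (n : H) = g * (q : H)⁻¹ := by rw [← hnq]; group
      rw [h1]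
      exact mul_mem hg (inv_mem (le_normalizer q.2))
    have hnC : (n : H) ∈ centralizer ((Q : Subgroup H) : Set H) := by
      rw [mem_centralizer_iff]
      intro y hy
      have h1 : (n : H) * y * (n : H)⁻¹ * y⁻¹ = 1 := by
        apply hdisj
        · have h2 : (n : H) * y * (n : H)⁻¹ * y⁻¹ = (n : H) * (y * (n : H)⁻¹ * y⁻¹) := by group
          rw [h2]
          exact mul_mem n.2 (hN.conj_mem _ (inv_mem n.2) y)
        · exact mul_mem ((mem_normalizer_iff.1 hn y).1 hy) (inv_mem hy)
      have h2 : (n : H) * y * (n : H)⁻¹ = y := by rwa [mul_inv_eq_one] at h1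
      exact (mul_inv_eq_iff_eq_mul.1 h2).symm
    rw [← hnq]
    exact mul_mem (hC hnC) q.2
  -- Frattini: `H = H' Q`
  have hHQ : commutator H ⊔ (Q : Subgroup H) = ⊤ := by
    set M : Subgroup H := commutator H ⊔ (Q : Subgroup H) with hM
    have hMn : M.Normal := Subgroup.Normal.of_commutator_le _ le_sup_left
    have hQM : (Q : Subgroup H) ≤ M := le_sup_right
    have h1 := Sylow.normalizer_sup_eq_top (Q.subtype hQM)
    rw [eq_top_iff, ← h1]
    apply sup_le _ le_rfl
    have h2 : (((Q.subtype hQM : Sylow 2 M) : Subgroup M).map M.subtype) = (Q : Subgroup H) := by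
      rw [Sylow.coe_subtype, subgroupOf_map_subtype, inf_eq_left.2 hQM]
    rw [h2]
    exact hself.trans hQM
  -- `N ≤ H'`
  have hNH : N ≤ commutator H := by
    intro x hx
    have h1 : (QuotientGroup.mk' (commutator H)) x ∈ (Q : Subgroup H).map (QuotientGroup.mk' (commutator H)) := by
      have h2 : (⊤ : Subgroup H).map (QuotientGroup.mk' (commutator H)) =
          (Q : Subgroup H).map (QuotientGroup.mk' (commutator H)) := by
        rw [← hHQ, Subgroup.map_sup]
        have h3 : (commutator H).map (QuotientGroup.mk' (commutator H)) = ⊥ := by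
          rw [Subgroup.map_eq_bot_iff, QuotientGroup.ker_mk']
        rw [h3, bot_sup_eq]
      rw [← h2]
      exact mem_map_of_mem _ trivial
    obtain ⟨y, hy, hyx⟩ := h1
    obtain ⟨k, hk⟩ := Q.2 ⟨y, hy⟩
    have hk : y ^ 2 ^ k = 1 := congrArg Subtype.val hk
    have h2 : ((QuotientGroup.mk' (commutator H)) x) ^ 2 ^ k = 1 := by rw [← hyx, ← map_pow, hk, map_one]
    have h3 : ((QuotientGroup.mk' (commutator H)) x) ^ Nat.card N = 1 := by
      have h4 : x ^ Nat.card N = 1 := by
        have h5 : (⟨x, hx⟩ : N) ^ Nat.card N = 1 := pow_card_eq_one'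
        exact congrArg Subtype.val h5
      rw [← map_pow, h4, map_one]
    have h4 : Nat.Coprime (2 ^ k) (Nat.card N) :=
      Nat.Coprime.pow_left _ ((Nat.Prime.coprime_iff_not_dvd Nat.prime_two).2 hodd)
    have h5 := Nat.dvd_gcd (orderOf_dvd_of_pow_eq_one h2) (orderOf_dvd_of_pow_eq_one h3)
    rw [h4, Nat.dvd_one, orderOf_eq_one_iff] at h5
    rw [← QuotientGroup.eq_one_iff]
    exact h5
  -- `N` is a `Z`-group
  have hZ : IsZGroup N := by
    refine ⟨fun p hp P => ?_⟩
    by_cases hp2 : p = 2
    · subst hp2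
      have h1 : Nat.card (P : Subgroup N) = 1 := by
        obtain ⟨k, hk⟩ := P.2.exists_card_eq
        rcases Nat.eq_zero_or_pos k with rfl | hk0
        · simpa using hk
        · exfalso
          apply hodd
          have h2 : Nat.card (P : Subgroup N) ∣ Nat.card N := card_subgroup_dvd_card _
          rw [hk] at h2
          exact (dvd_pow_self 2 (by omega)).trans h2
      have : Subsingleton (P : Subgroup N) := (Nat.card_eq_one_iff_unique.1 h1).1
      exact isCyclic_of_subsingleton
    · have h1 := hcyc p hp hp2 ((P : Subgroup N).map N.subtype) (P.2.map _)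
      exact isCyclic_of_injective ((P : Subgroup N).equivMapOfInjective _ N.subtype_injective).toMonoidHom
        ((P : Subgroup N).equivMapOfInjective _ N.subtype_injective).injective
  have hcc : IsCyclic (commutator N) := IsZGroup.isCyclic_commutator N
  set Z : Subgroup H := (commutator N).map N.subtype with hZd
  have hZn : Z.Normal := by
    have : (commutator N).Characteristic := inferInstance
    exact ConjAct.normal_of_characteristic_of_normal
  have hZc : IsCyclic Z := isCyclic_of_surjective
    ((commutator N).equivMapOfInjective _ N.subtype_injective).toMonoidHom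
    ((commutator N).equivMapOfInjective _ N.subtype_injective).surjective
  have hcent : commutator N ≤ center N := by
    intro x hx
    rw [mem_center_iff]
    intro y
    have h1 := commutator_le_centralizer hZn hZc (hNH y.2)
    have h2 := mem_centralizer_iff.1 h1 (x : H) ⟨x, hx, rfl⟩
    exact Subtype.ext h2.symm
  have hcy : IsCyclic (Abelianization N) := inferInstance
  have hcy' : IsCyclic (N ⧸ commutator N) := hcy
  have h1 := (QuotientGroup.mk' (commutator N)).isMulCommutative_of_isCyclic_of_ker_le_center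
    (by rw [QuotientGroup.ker_mk']; exact hcent)
  intro a ha b hb
  exact congrArg Subtype.val (h1.is_comm.comm ⟨a, ha⟩ ⟨b, hb⟩)

end Cfsg.Agent.H555.RV
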